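import Cfsg.Agent.Lib.ToddCox.HCT.P0
set_option autoImplicit false
set_option maxRecDepth 100000
namespace Cfsg.Agent.Lib.ToddCox.HCT
theorem covered : Covered Eo inv W isH 45266 111861 := (Covered.trans (Covered.trans (Covered.trans (Covered.trans (Covered.trans c0 c1) (Covered.trans c2 c3)) (Covered.trans (Covered.trans c4 c5) (Covered.trans c6 c7))) (Covered.trans (Covered.trans (Covered.trans c8 c9) (Covered.trans c10 c11)) (Covered.trans (Covered.trans c12 c13) (Covered.trans c14 (Covered.trans c15 c16))))) (Covered.trans (Covered.trans (Covered.trans (Covered.trans c17 c18) (Covered.trans c19 c20)) (Covered.trans (Covered.trans c21 c22) (Covered.trans c23 c24))) (Covered.trans (Covered.trans (Covered.trans c25 c26) (Covered.trans c27 c28)) (Covered.trans (Covered.trans c29 c30) (Covered.trans c31 (Covered.trans c32 c33))))))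
theorem links : LinksOK Eo cF (2 * nEv) N ys 0 21504 := (LinksOK.trans (LinksOK.trans (LinksOK.trans (LinksOK.trans k0 k1) (LinksOK.trans k2 (LinksOK.trans k3 k4))) (LinksOK.trans (LinksOK.trans k5 k6) (LinksOK.trans k7 (LinksOK.trans k8 k9)))) (LinksOK.trans (LinksOK.trans (LinksOK.trans k10 k11) (LinksOK.trans k12 (LinksOK.trans k13 k14))) (LinksOK.trans (LinksOK.trans k15 (LinksOK.trans k16 k17)) (LinksOK.trans k18 (LinksOK.trans k19 k20)))))
theorem defs : ∀ c, c < nDef → chkDef Eo inv c = true := defs_of_bits 45266 13 6 (by norm_num) (by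
  intro j hj
  interval_cases j
  · exact d0
  · exact d1
  · exact d2
  · exact d3
  · exact d4
  · exact d5
  )
theorem words : ∀ j, j < nW → wordsOK W (relR Rb inv) inv sp j = true := allBelow_spec (by norm_num [nW]) wordsGood
end Cfsg.Agent.Lib.ToddCox.HCT
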